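import Mathlib
import Cfsg.Prelude.Def_Transfer

set_option autoImplicit false

/-!
Package statements for S4146 (class sizes `{1, n, m, n m}` with `gcd(n,m) = 1` imply nilpotent and
`n`, `m` prime powers).  Each package is a `Prop`; a proof of a package is a theorem of that type
(possibly with earlier packages as hypotheses).
-/

namespace Cfsg.Agent.Lib.Helper5.CS4

universe u

/-- Index of the centralizer of `x` (the size of the conjugacy class of `x`). -/
noncomputable abbrev cidx {G : Type u} [Group G] (x : G) : ℕ := (Subgroup.centralizer ({x} : Set G)).index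

/-- The class-size hypothesis of S4146. -/
def Ctx (G : Type u) [Group G] (n m : ℕ) : Prop :=
  1 < n ∧ 1 < m ∧ n.Coprime m ∧
    Set.range (fun x : G => cidx x) = ({1, n, m, n * m} : Set ℕ)

/-- A *good* element for the class size `k`: prime power order `r ^ j`, class size `k`, and
`r ∣ k`. -/
def Good (G : Type u) [Group G] (k : ℕ) : Prop :=
  ∃ (a : G) (r j : ℕ), r.Prime ∧ orderOf a = r ^ j ∧ cidx a = k ∧ r ∣ k

/-! ### Tools -/

/-- [COP] commuting elements of coprime orders: `C(xy) = C(x) ∩ C(y)`. -/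
def PkgCop : Prop :=
  ∀ {G : Type u} [Group G] [Finite G] (x y : G), x * y = y * x →
    (orderOf x).Coprime (orderOf y) →
    Subgroup.centralizer ({x * y} : Set G) =
      Subgroup.centralizer ({x} : Set G) ⊓ Subgroup.centralizer ({y} : Set G)

/-- [PROD] coprime class sizes: `G = C(a) C(b)` and `|G : C(a) ∩ C(b)| = n m`. -/
def PkgProd : Prop :=
  ∀ {G : Type u} [Group G] [Finite G] (n m : ℕ), n.Coprime m →
    ∀ a b : G, cidx a = n → cidx b = m →
    (∀ g : G, ∃ k c : G, k * a = a * k ∧ c * b = b * c ∧ g = k * c) ∧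
    (Subgroup.centralizer ({a} : Set G) ⊓ Subgroup.centralizer ({b} : Set G)).index = n * m

/-- [PP] a non-central element has a non-central power of prime power order. -/
def PkgPP : Prop :=
  ∀ {G : Type u} [Group G] [Finite G] (x : G), x ∉ Subgroup.center G →
    ∃ (i p k : ℕ), p.Prime ∧ orderOf (x ^ i) = p ^ k ∧ x ^ i ∉ Subgroup.center G

/-- [B4] if `p` divides no class size, every `p`-element is central. -/
def PkgSylCentral : Prop :=
  ∀ {G : Type u} [Group G] [Finite G] (p : ℕ), p.Prime → (∀ x : G, ¬ p ∣ cidx x) →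
    ∀ (x : G) (k : ℕ), orderOf x = p ^ k → x ∈ Subgroup.center G

/-- [ITO] Ito's theorem (S4134) inside a subgroup `H`: if all `H`-class sizes of elements of `H`
are `1` or `n`, a prime-power element of `H` with `H`-class size `n` is a `p`-element for a
prime `p ∣ n`, and `n` is a prime power. -/
def PkgItoSub : Prop :=
  ∀ {G : Type u} [Group G] [Finite G] (H : Subgroup G) (n : ℕ), 1 < n →
    (∀ x ∈ H, (Subgroup.centralizer ({x} : Set G)).relIndex H = 1 ∨
      (Subgroup.centralizer ({x} : Set G)).relIndex H = n) →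
    ∀ a ∈ H, (Subgroup.centralizer ({a} : Set G)).relIndex H = n →
    ∀ r j : ℕ, r.Prime → orderOf a = r ^ j → IsPrimePow n ∧ r ∣ n

/-! ### Part I: a good element for `m` forces `n` to be a prime power with a good element -/

/-- [GOODS] structure of `C(b)` for a good `b` (S4035): the `s`-complement `H'`. -/
def PkgGoodS : Prop :=
  ∀ {G : Type u} [Group G] [Finite G] (n m : ℕ), Ctx G n m →
    ∀ (b : G) (s j : ℕ), s.Prime → orderOf b = s ^ j → cidx b = m → s ∣ m →
    ∃ H' : Subgroup G, H' ≤ Subgroup.centralizer ({b} : Set G) ∧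
      (∃ i : ℕ, H'.relIndex (Subgroup.centralizer ({b} : Set G)) = s ^ i) ∧
      (∀ x : G, x * b = b * x → (orderOf x).Coprime s → x ∈ H') ∧
      (∀ x : G, x * b = b * x → ∀ k : ℕ, orderOf x = s ^ k → ∀ y ∈ H', x * y = y * x) ∧
      (∀ y ∈ H', (Subgroup.centralizer ({y} : Set G)).relIndex H' = 1 ∨
        (Subgroup.centralizer ({y} : Set G)).relIndex H' = n)

/-- [GOOD] -/
def PkgGood : Prop :=
  ∀ {G : Type u} [Group G] [Finite G] (n m : ℕ), Ctx G n m → Good G m →
    IsPrimePow n ∧ Good G n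

/-! ### Part II: two good elements give nilpotency -/

/-- [NILASM] -/
def PkgNilAsm : Prop :=
  ∀ {G : Type u} [Group G] [Finite G] (p q : ℕ), p.Prime → q.Prime → p ≠ q →
    Cfsg.HasNormalPComplement p G → Cfsg.HasNormalPComplement q G →
    (∀ (x : G) (t : ℕ), t.Prime → t ∣ cidx x → t = p ∨ t = q) → Group.IsNilpotent G

/-- [NIL] -/
def PkgNil : Prop :=
  ∀ {G : Type u} [Group G] [Finite G] (n m : ℕ), Ctx G n m → Good G n → Good G m →
    IsPrimePow n → IsPrimePow m → Group.IsNilpotent G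

/-! ### Part III: no good elements at all is impossible (`m < n`) -/

/-- [M] the elements of class size `1` or `m` form a normal subgroup (`m < n`). -/
def PkgM : Prop :=
  ∀ {G : Type u} [Group G] [Finite G] (n m : ℕ), Ctx G n m → m < n →
    ∃ M : Subgroup G, M.Normal ∧ ∀ x : G, x ∈ M ↔ (cidx x = 1 ∨ cidx x = m)

/-- [U] without good elements for `m`, `M` is abelian; `U` is its Hall `π(m)'`-subgroup. -/
def PkgU : Prop :=
  ∀ {G : Type u} [Group G] [Finite G] (n m : ℕ), Ctx G n m → m < n → ¬ Good G m →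
    ∃ U : Subgroup G, U.Normal ∧ (∀ x ∈ U, ∀ y ∈ U, x * y = y * x) ∧
      ∀ x : G, x ∈ U ↔ ((cidx x = 1 ∨ cidx x = m) ∧ (orderOf x).Coprime m)

/-- [DICH] dichotomy for an element of class size `n` acting coprimely on `U`. -/
def PkgDich : Prop :=
  ∀ {G : Type u} [Group G] [Finite G] (n m : ℕ), Ctx G n m →
    ∀ U : Subgroup G, U.Normal → (∀ x ∈ U, ∀ y ∈ U, x * y = y * x) →
    (∀ x ∈ U, cidx x = 1 ∨ cidx x = m) →
    ∀ a : G, cidx a = n → (orderOf a).Coprime (Nat.card U) →
    (∀ u ∈ U, a * u = u * a) ∨ (∀ u ∈ U, a * u = u * a → u ∈ Subgroup.center G)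

/-- [E0] centralizer of a prime-power element of the largest class size. -/
def PkgE0 : Prop :=
  ∀ {G : Type u} [Group G] [Finite G] (n m : ℕ), Ctx G n m →
    ∀ (t : G) (p k : ℕ), p.Prime → orderOf t = p ^ k → cidx t = n * m →
    ∀ y : G, y * t = t * y → (orderOf y).Coprime p →
    ∀ g : G, g * t = t * g → g * y = y * g

/-- [BETA] some prime-power element of class size `n` commutes with one of class size `m`. -/
def PkgBeta : Prop :=
  ∀ {G : Type u} [Group G] [Finite G] (n m : ℕ), Ctx G n m → ¬ Good G n → ¬ Good G m →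
    ∃ (a w : G) (r k s j : ℕ), r.Prime ∧ orderOf a = r ^ k ∧ cidx a = n ∧
      s.Prime ∧ orderOf w = s ^ j ∧ cidx w = m ∧ a * w = w * a

/-- [QC] `r'`-elements of `C(a)` centralize `U`. -/
def PkgQC : Prop :=
  ∀ {G : Type u} [Group G] [Finite G] (n m : ℕ), Ctx G n m →
    ∀ U : Subgroup G, U.Normal → (Nat.card U).Coprime m →
    ∀ (a : G) (r k : ℕ), r.Prime → orderOf a = r ^ k → cidx a = n →
    (∀ u ∈ U, a * u = u * a) →
    ∀ y : G, y * a = a * y → (orderOf y).Coprime r → ∀ u ∈ U, y * u = u * y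

/-- [Q] `m` is a power of `r`. -/
def PkgQ : Prop :=
  ∀ {G : Type u} [Group G] [Finite G] (n m : ℕ), Ctx G n m →
    ∀ U : Subgroup G, U.Normal → (Nat.card U).Coprime m →
    ∀ (a : G) (r k : ℕ), r.Prime → orderOf a = r ^ k → cidx a = n →
    (∀ u ∈ U, a * u = u * a) → (∃ w ∈ U, cidx w = m) → ∃ e : ℕ, m = r ^ e

/-- The situation reached when there are no good elements (`m = q ^ e`). -/
structure StageA (G : Type u) [Group G] (n q e : ℕ) (U : Subgroup G) (a₀ : G) : Prop where
  hq : q.Prime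
  ctx : Ctx G n (q ^ e)
  U_normal : U.Normal
  U_comm : ∀ x ∈ U, ∀ y ∈ U, x * y = y * x
  U_iff : ∀ x : G, x ∈ U ↔ ((cidx x = 1 ∨ cidx x = q ^ e) ∧ (orderOf x).Coprime q)
  w_ex : ∃ w ∈ U, cidx w = q ^ e
  hTn : ∀ (a : G) (r k : ℕ), r.Prime → orderOf a = r ^ k → cidx a = n → r = q
  hTm : ∀ (b : G) (s k : ℕ), s.Prime → orderOf b = s ^ k → cidx b = q ^ e → s ≠ q
  a₀_order : ∃ k : ℕ, orderOf a₀ = q ^ k
  a₀_type : cidx a₀ = n
  a₀_cent : ∀ u ∈ U, a₀ * u = u * a₀
  dich : ∀ a : G, (∃ k : ℕ, orderOf a = q ^ k) → cidx a = n →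
    (∀ u ∈ U, a * u = u * a) ∨ (∀ u ∈ U, a * u = u * a → u ∈ Subgroup.center G)

/-- [STA] -/
def PkgStA : Prop :=
  ∀ {G : Type u} [Group G] [Finite G] (n m : ℕ), Ctx G n m → m < n → ¬ Good G n → ¬ Good G m →
    ∃ (q e : ℕ) (U : Subgroup G) (a₀ : G), m = q ^ e ∧ StageA G n q e U a₀

/-- [NCQ] the centralizer of an element of the largest class size contains a non-central
`q`-element. -/
def PkgNCQ : Prop :=
  ∀ {G : Type u} [Group G] [Finite G] (n q e : ℕ) (U : Subgroup G) (a₀ : G),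
    StageA G n q e U a₀ → ∀ x : G, cidx x = n * q ^ e →
    ∃ (y : G) (j : ℕ), orderOf y = q ^ j ∧ y * x = x * y ∧ y ∉ Subgroup.center G

/-- Conclusion of [E1]: prime-power `q'`-elements of the largest class size have abelian
centralizers. -/
def E1Concl (G : Type u) [Group G] (n q e : ℕ) : Prop :=
  ∀ (x : G) (t k : ℕ), t.Prime → t ≠ q → orderOf x = t ^ k → cidx x = n * q ^ e →
    ∀ g h : G, g * x = x * g → h * x = x * h → g * h = h * g

/-- Conclusion of [CU]: every `q'`-element centralizes `U`. -/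
def CUConcl (G : Type u) [Group G] (q : ℕ) (U : Subgroup G) : Prop :=
  ∀ x : G, (orderOf x).Coprime q → ∀ u ∈ U, x * u = u * x

/-- [E1] -/
def PkgE1 : Prop :=
  ∀ {G : Type u} [Group G] [Finite G] (n q e : ℕ) (U : Subgroup G) (a₀ : G),
    StageA G n q e U a₀ → E1Concl G n q e

/-- [FIX] a `t`-element fixes a point of a conjugacy class of size prime to `t`. -/
def PkgFix : Prop :=
  ∀ {G : Type u} [Group G] [Finite G] (x w : G) (t k : ℕ), t.Prime → orderOf x = t ^ k →
    ¬ t ∣ cidx w → ∃ g : G, x * (g * w * g⁻¹) = (g * w * g⁻¹) * x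

/-- [CU] -/
def PkgCU : Prop :=
  ∀ {G : Type u} [Group G] [Finite G] (n q e : ℕ) (U : Subgroup G) (a₀ : G),
    StageA G n q e U a₀ → E1Concl G n q e → CUConcl G q U

/-- [NCS] if some prime-power `q'`-element has the largest class size, then `C(w)` (for `w ∈ U`
of class size `q ^ e`) has class sizes `1` and `n` only. -/
def PkgNcs : Prop :=
  ∀ {G : Type u} [Group G] [Finite G] (n q e : ℕ) (U : Subgroup G) (a₀ : G),
    StageA G n q e U a₀ → E1Concl G n q e → CUConcl G q U →
    (∃ (x : G) (t k : ℕ), t.Prime ∧ t ≠ q ∧ orderOf x = t ^ k ∧ cidx x = n * q ^ e) →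
    ∀ w ∈ U, cidx w = q ^ e → ∀ x' : G, x' * w = w * x' →
      (Subgroup.centralizer ({x'} : Set G)).relIndex (Subgroup.centralizer ({w} : Set G)) = 1 ∨
      (Subgroup.centralizer ({x'} : Set G)).relIndex (Subgroup.centralizer ({w} : Set G)) = n

/-- [FIN1] -/
def PkgFin1 : Prop :=
  ∀ {G : Type u} [Group G] [Finite G] (n q e : ℕ) (U : Subgroup G) (a₀ : G),
    StageA G n q e U a₀ → E1Concl G n q e → CUConcl G q U →
    (∃ (x : G) (t k : ℕ), t.Prime ∧ t ≠ q ∧ orderOf x = t ^ k ∧ cidx x = n * q ^ e) → False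

/-- [FIN2] -/
def PkgFin2 : Prop :=
  ∀ {G : Type u} [Group G] [Finite G] (n q e : ℕ) (U : Subgroup G) (a₀ : G),
    StageA G n q e U a₀ →
    (∀ (x : G) (t k : ℕ), t.Prime → t ≠ q → orderOf x = t ^ k → cidx x ≠ n * q ^ e) → False

end Cfsg.Agent.Lib.Helper5.CS4
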