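import Cfsg.Agent.Lib.Helper5.CS4.Defs

set_option autoImplicit false

namespace Cfsg.Agent.Lib.Helper5.CS4

universe u

theorem ctx_swap {G : Type u} [Group G] {n m : ℕ} (h : Ctx G n m) : Ctx G m n := by
  obtain ⟨hn, hm, hcop, hr⟩ := h
  refine ⟨hm, hn, hcop.symm, ?_⟩
  rw [hr]
  ext k
  simp only [Set.mem_insert_iff, Set.mem_singleton_iff, mul_comm m n]
  tauto

theorem bad_of (hStA : PkgStA.{u}) (hE1 : PkgE1.{u}) (hCU : PkgCU.{u})
    (hF1 : PkgFin1.{u}) (hF2 : PkgFin2.{u})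
    {G : Type u} [Group G] [Finite G] (n m : ℕ) (ctx : Ctx G n m) (hlt : m < n)
    (hA : ¬ Good G n) (hB : ¬ Good G m) : False := by
  obtain ⟨q, e, U, a₀, rfl, st⟩ := hStA n m ctx hlt hA hB
  have e1 := hE1 n q e U a₀ st
  have cu := hCU n q e U a₀ st e1
  by_cases hx : ∃ (x : G) (t k : ℕ), t.Prime ∧ t ≠ q ∧ orderOf x = t ^ k ∧ cidx x = n * q ^ e
  · exact hF1 n q e U a₀ st e1 cu hx
  · refine hF2 n q e U a₀ st ?_
    intro x t k ht htq ho hc
    exact hx ⟨x, t, k, ht, htq, ho, hc⟩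

/-- Assembly: S4146 from the packages. -/
theorem s4146_of (hGood : PkgGood.{u}) (hNil : PkgNil.{u}) (hStA : PkgStA.{u}) (hE1 : PkgE1.{u})
    (hCU : PkgCU.{u}) (hF1 : PkgFin1.{u}) (hF2 : PkgFin2.{u})
    {G : Type u} [Group G] [Finite G] (n m : ℕ) (hn : 1 < n) (hm : 1 < m) (hcop : n.Coprime m)
    (h : Set.range (fun x : G => (Subgroup.centralizer ({x} : Set G)).index) =
      ({1, n, m, n * m} : Set ℕ)) :
    Group.IsNilpotent G ∧ IsPrimePow n ∧ IsPrimePow m := by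
  have ctx : Ctx G n m := ⟨hn, hm, hcop, h⟩
  have ctx' : Ctx G m n := ctx_swap ctx
  by_cases hA : Good G n
  · obtain ⟨hpm, hB⟩ := hGood m n ctx' hA
    obtain ⟨hpn, _⟩ := hGood n m ctx hB
    exact ⟨hNil n m ctx hA hB hpn hpm, hpn, hpm⟩
  · by_cases hB : Good G m
    · exact absurd (hGood n m ctx hB).2 hA
    · exfalso
      have hne : n ≠ m := by
        rintro rfl
        rw [Nat.coprime_self] at hcop
        omega
      rcases lt_or_gt_of_ne hne with hlt | hlt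
      · exact bad_of hStA hE1 hCU hF1 hF2 m n ctx' hlt hB hA
      · exact bad_of hStA hE1 hCU hF1 hF2 n m ctx hlt hA hB

end Cfsg.Agent.Lib.Helper5.CS4
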